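import Mathlib
import Cfsg.Agent.H277.EM.Univ
import Cfsg.Agent.H277.EM.Crow
import Cfsg.Agent.S2105
import Cfsg.Agent.S2106
import Cfsg.Agent.S2107
import Cfsg.Agent.H83.Count
import Cfsg.Agent.H83.RedESix
import Cfsg.Agent.H83.RedESeven
import Cfsg.Agent.H83.RedEEight
import Cfsg.Agent.H81.InvGen

/-!
# S2243: the rows `E₆(q)`, `E₇(q)`, `E₈(q)` for even `q` (helper531)

`em_gen` : in characteristic 2 a list of pairwise orthogonal roots which contains the representatives of the classes of
involutions gives `EM`.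
-/

set_option autoImplicit false
set_option linter.unusedSectionVars false

namespace Cfsg.Agent.H531.EMExc

open Cfsg.Lie Cfsg.Agent.ChevalleyStructure Cfsg.Agent.ChevalleyStructure.Elts
  Cfsg.Agent.ChevalleyStructure.RootCombGood Cfsg.Agent.H83.ChevInv Cfsg.Agent.H83.OrthRed Cfsg.Agent.H83.RedGen
  Cfsg.Agent.H277.MI Cfsg.Agent.H51.Mult

universe u v

section gen

variable {D : ChevalleyDatum} {l : ℕ} {M : CoxeterMatrix (Fin l)} (hp : Cfsg.Agent.Nodes.RGDChev.IsType D l M)
  {K : Type v} [Field K] [CharP K 2] [Finite K]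

include hp

theorem em_gen {certs : List Cert} {words reps : List (List ℕ)} {n : ℕ}
    (h : allchk D certs words reps n = true) (S : List ℕ) (hS : Cfsg.Agent.H81.InvGen.olchk D S = true)
    (hsub : (reps.all fun R => R.all fun r => decide (r ∈ S)) = true) : EM (D.group K) := by
  have hOL := Cfsg.Agent.H81.InvGen.ol_of_chk hS
  have hD := hp.inList
  have hmem : ∀ r : ℕ, xG hD r (1 : K) ∈ D.group K := fun r => by
    have := PX_mem hD K [r]
    rwa [PX_cons, PX_nil, mul_one] at this
  obtain ⟨s, hs⟩ : ∃ s : Set (D.group K), s = {y | ∃ r ∈ S, y = ⟨xG hD r (1 : K), hmem r⟩} := ⟨_, rfl⟩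
  refine em_of_commuting s ?_ ?_ ?_
  · rw [hs]
    rintro y ⟨r, hr, rfl⟩
    exact Subtype.ext (xG_sq hD r 1)
  · rw [hs]
    have h1 : S.Pairwise fun r t => xG hD r (1 : K) * xG hD t 1 = xG hD t 1 * xG hD r 1 :=
      hOL.orth.imp_of_mem fun {a b} ha hb hab => comm_orth hD (hOL.lt a ha) (hOL.lt b hb) hab 1 1
    have h2 : ∀ T : List ℕ, (T.Pairwise fun r t => xG hD r (1 : K) * xG hD t 1 = xG hD t 1 * xG hD r 1) →
        ∀ r ∈ T, ∀ t ∈ T, xG hD r (1 : K) * xG hD t 1 = xG hD t 1 * xG hD r 1 := by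
      intro T
      induction T with
      | nil => intro _ r hr; exact absurd hr List.not_mem_nil
      | cons a T ih =>
        intro hT r hr t ht
        obtain ⟨h3, h4⟩ := List.pairwise_cons.1 hT
        rcases List.mem_cons.1 hr with hr | hr
        · rcases List.mem_cons.1 ht with ht | ht
          · rw [hr, ht]
          · rw [hr]; exact h3 t ht
        · rcases List.mem_cons.1 ht with ht | ht
          · rw [ht]; exact (h3 r hr).symm
          · exact ih h4 r hr t ht
    rintro x ⟨r, hr, rfl⟩ y ⟨t, ht, rfl⟩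
    exact Subtype.ext (h2 S h1 r hr t ht)
  · intro t ht
    have h2 : (t : GL D.Idx K) * t = 1 := by
      have := sq_of_orderOf ht
      exact congrArg Subtype.val this
    obtain ⟨R, hR, g, hg, e⟩ := Cfsg.Agent.H83.Count.exists_rep hp h t.2 h2
    refine ⟨⟨g, hg⟩, ?_⟩
    have h3 : ∀ L : List ℕ, (∀ r ∈ L, r ∈ S) → (⟨PX hD K L, PX_mem hD K L⟩ : D.group K) ∈ Subgroup.closure s := by
      intro L
      induction L with
      | nil => intro _; exact one_mem _
      | cons r L ih =>
        intro hL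
        have h4 : (⟨PX hD K (r :: L), PX_mem hD K (r :: L)⟩ : D.group K) =
            ⟨xG hD r (1 : K), hmem r⟩ * ⟨PX hD K L, PX_mem hD K L⟩ := Subtype.ext (PX_cons hD K r L)
        rw [h4]
        refine mul_mem (Subgroup.subset_closure ?_) (ih fun x hx => hL x (by simp [hx]))
        rw [hs]
        exact ⟨r, hL r (by simp), rfl⟩
    have h5 : (⟨g, hg⟩ * t * (⟨g, hg⟩ : D.group K)⁻¹ : D.group K) = ⟨PX hD K R, PX_mem hD K R⟩ := Subtype.ext e
    rw [h5]
    apply h3
    rw [List.all_eq_true] at hsub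
    have h6 := hsub R hR
    rw [List.all_eq_true] at h6
    exact fun r hr => of_decide_eq_true (h6 r hr)

end gen

theorem hp6 : Cfsg.Agent.Nodes.RGDChev.IsType chevE6 6 CoxeterMatrix.E₆ := by
  simp [Cfsg.Agent.Nodes.RGDChev.IsType, Cfsg.Agent.Nodes.RGDChev.typeList]

theorem hp7 : Cfsg.Agent.Nodes.RGDChev.IsType chevE7 7 CoxeterMatrix.E₇ := by
  simp [Cfsg.Agent.Nodes.RGDChev.IsType, Cfsg.Agent.Nodes.RGDChev.typeList]

theorem hp8 : Cfsg.Agent.Nodes.RGDChev.IsType chevE8 8 CoxeterMatrix.E₈ := by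
  simp [Cfsg.Agent.Nodes.RGDChev.IsType, Cfsg.Agent.Nodes.RGDChev.typeList]

section fields

variable {F : Type v} [Field F] [Fintype F]

theorem charTwo (hF : Even (Fintype.card F)) : CharP F 2 := by
  have h1 : ringChar F = 2 := FiniteField.even_card_iff_char_two.2 (Nat.even_iff.1 hF)
  exact ringChar.of_eq h1

theorem em_e6 (hF : Even (Fintype.card F)) : EM (chevE6.group F) := by
  have := charTwo hF
  exact em_gen hp6 Cfsg.Agent.H83.RedESix.allchk_eq [71, 60, 44] (by decide +kernel) (by decide +kernel)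

theorem em_e7 (hF : Even (Fintype.card F)) : EM (chevE7.group F) := by
  have := charTwo hF
  exact em_gen hp7 Cfsg.Agent.H83.RedESeven.allchk_eq [125, 92, 63, 87] (by decide +kernel) (by decide +kernel)

theorem em_e8 (hF : Even (Fintype.card F)) : EM (chevE8.group F) := by
  have := charTwo hF
  exact em_gen hp8 Cfsg.Agent.H83.RedEEight.allchk_eq [239, 226, 159, 152] (by decide +kernel) (by decide +kernel)

end fields

section rows

variable {L : Type u} [Group L] [Finite L] [IsSimpleGroup L] {F : Type v} [Field F] [Fintype F]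

theorem crow_e6_even (hF : Even (Fintype.card F)) (e : L ≃* Cfsg.Lie.chevE6.group F) : CRow L := by
  refine CRow.congr e (CRow.of_noCov (noCov_of_cyclic (Cfsg.Agent.S2105.result (F := F) rfl) ?_) (em_e6 hF))
  exact Odd.of_dvd_nat (by decide : Odd 3) (Nat.gcd_dvd_left _ _)

theorem crow_e7_even (hF : Even (Fintype.card F)) (e : L ≃* Cfsg.Lie.chevE7.group F) : CRow L := by
  refine CRow.congr e (CRow.of_noCov (noCov_of_cyclic (Cfsg.Agent.S2106.result (F := F) rfl) ?_) (em_e7 hF))
  have h1 : 1 < Fintype.card F := Fintype.one_lt_card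
  have h2 : Odd (Fintype.card F - 1) := Nat.Even.sub_odd h1.le hF odd_one
  exact Odd.of_dvd_nat h2 (Nat.gcd_dvd_right _ _)

theorem crow_e8_even (hF : Even (Fintype.card F)) (e : L ≃* Cfsg.Lie.chevE8.group F) : CRow L :=
  CRow.congr e (CRow.of_noCov (noCov_of_cyclic (Cfsg.Agent.S2107.result (F := F)) odd_one) (em_e8 hF))

end rows

end Cfsg.Agent.H531.EMExc
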