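import Cfsg.Agent.Lib.Cores
import Cfsg.Agent.S0200
import Cfsg.Agent.S0205

/-!
# Groups in which no 2-element inverts a non-identity element of odd order

`NoInv G` : if `t` is a 2-element, `e` of odd order and `t * e * t⁻¹ = e⁻¹` then `e = 1`.

* `NoInv.commute` : a 2-element normalising a subgroup of odd order centralises it.
* `NoInv.quotient` : the property passes to quotients.
* `NoInv.isSolvable` : such a group is solvable (Baer-Suzuki and the odd order theorem).
-/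

set_option autoImplicit false

namespace Cfsg.Agent.H531.InvertOdd

open scoped Pointwise

/-- No 2-element inverts a non-identity element of odd order. -/
def NoInv (G : Type*) [Group G] : Prop :=
  ∀ t e : G, (∃ k : ℕ, t ^ 2 ^ k = 1) → Odd (orderOf e) → t * e * t⁻¹ = e⁻¹ → e = 1

theorem NoInv.commute_aux {G : Type*} [Group G] [Finite G] (hG : NoInv G) (E : Subgroup G)
    (hE : Odd (Nat.card E)) : ∀ (k : ℕ) (t : G), t ^ 2 ^ k = 1 →
      t ∈ Subgroup.normalizer (E : Set G) → ∀ e ∈ E, t * e = e * t := by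
  intro k
  induction k with
  | zero =>
    intro t ht _ e _
    have : t = 1 := by simpa using ht
    subst this; simp
  | succ k ih =>
    intro t ht htE e he
    have h2 := ih (t ^ 2) (by rw [← pow_mul, ← pow_succ']; exact ht) (Subgroup.pow_mem _ htE 2)
    have hte : t * e * t⁻¹ ∈ E := (Subgroup.mem_normalizer_iff.mp htE e).mp he
    have hc : e⁻¹ * (t * e * t⁻¹) ∈ E := E.mul_mem (E.inv_mem he) hte
    have hodd : Odd (orderOf (e⁻¹ * (t * e * t⁻¹))) := by
      have hd : orderOf (e⁻¹ * (t * e * t⁻¹)) ∣ Nat.card E := by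
        exact E.orderOf_dvd_natCard hc
      exact Odd.of_dvd_nat hE hd
    have hinv : t * (e⁻¹ * (t * e * t⁻¹)) * t⁻¹ = (e⁻¹ * (t * e * t⁻¹))⁻¹ := by
      have h3 : t ^ 2 * e = e * t ^ 2 := h2 e he
      calc t * (e⁻¹ * (t * e * t⁻¹)) * t⁻¹ = (t * e * t⁻¹)⁻¹ * (t ^ 2 * e) * (t ^ 2)⁻¹ := by
            group
        _ = (t * e * t⁻¹)⁻¹ * (e * t ^ 2) * (t ^ 2)⁻¹ := by rw [h3]
        _ = (e⁻¹ * (t * e * t⁻¹))⁻¹ := by group
    have h1 := hG t _ ⟨k + 1, ht⟩ hodd hinv
    have h4 : t * e * t⁻¹ = e := by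
      have := congrArg (fun z => e * z) h1
      simpa using this
    calc t * e = (t * e * t⁻¹) * t := by group
      _ = e * t := by rw [h4]

/-- In a group with `NoInv`, a 2-element normalising a subgroup of odd order centralises it. -/
theorem NoInv.commute {G : Type*} [Group G] [Finite G] (hG : NoInv G) {E : Subgroup G}
    (hE : Odd (Nat.card E)) {t : G} (ht : ∃ k : ℕ, t ^ 2 ^ k = 1)
    (htE : t ∈ Subgroup.normalizer (E : Set G)) {e : G} (he : e ∈ E) : t * e = e * t := by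
  obtain ⟨k, hk⟩ := ht
  exact hG.commute_aux E hE k t hk htE e he

theorem exists_two_part {G : Type*} [Group G] [Finite G] (h : G) :
    ∃ m : ℕ, Odd m ∧ ∃ k : ℕ, (h ^ m) ^ 2 ^ k = 1 := by
  obtain ⟨k, m, hm, he⟩ := Nat.exists_eq_two_pow_mul_odd (orderOf_pos h).ne'
  exact ⟨m, hm, k, by rw [← pow_mul, mul_comm, ← he, pow_orderOf_eq_one]⟩

theorem NoInv.of_injective {G H : Type*} [Group G] [Group H] (hG : NoInv G) (f : H →* G)
    (hf : Function.Injective f) : NoInv H := by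
  intro t e ⟨k, hk⟩ he hinv
  apply hf
  rw [map_one]
  refine hG (f t) (f e) ⟨k, by rw [← map_pow, hk, map_one]⟩ ?_ ?_
  · rwa [orderOf_injective f hf]
  · rw [← map_mul, ← map_inv, ← map_mul, hinv, map_inv]

theorem conj_pow_odd {G : Type*} [Group G] {h x : G} (hx : h * x * h⁻¹ = x⁻¹) {m : ℕ}
    (hm : Odd m) : h ^ m * x * (h ^ m)⁻¹ = x⁻¹ := by
  obtain ⟨j, rfl⟩ := hm
  have h2 : Commute (h ^ 2) x := by
    have : h ^ 2 * x * (h ^ 2)⁻¹ = x := by
      calc h ^ 2 * x * (h ^ 2)⁻¹ = h * (h * x * h⁻¹) * h⁻¹ := by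
            rw [pow_two, mul_inv_rev]; simp only [mul_assoc]
        _ = h * x⁻¹ * h⁻¹ := by rw [hx]
        _ = (h * x * h⁻¹)⁻¹ := by group
        _ = x := by rw [hx, inv_inv]
    rw [commute_iff_eq]
    calc h ^ 2 * x = (h ^ 2 * x * (h ^ 2)⁻¹) * h ^ 2 := by group
      _ = x * h ^ 2 := by rw [this]
  have h3 : Commute (h ^ (2 * j)) x := by
    rw [pow_mul]; exact h2.pow_left j
  rw [pow_succ', mul_inv_rev]
  calc h * h ^ (2 * j) * x * ((h ^ (2 * j))⁻¹ * h⁻¹)
      = h * (h ^ (2 * j) * x) * (h ^ (2 * j))⁻¹ * h⁻¹ := by group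
    _ = h * (x * h ^ (2 * j)) * (h ^ (2 * j))⁻¹ * h⁻¹ := by rw [h3.eq]
    _ = h * x * h⁻¹ := by group
    _ = x⁻¹ := hx

theorem quot_aux {X Y : Type*} [Group X] [Group Y] [Finite X] (f : X →* Y)
    (hf : Function.Surjective f) (hX : NoInv X) (t v : Y) (r : ℕ) (hr : r.Prime) (hr2 : Odd r)
    (hv : orderOf v = r) (hinv : t * v * t⁻¹ = v⁻¹) (hn : (Subgroup.zpowers v).Normal) :
    False := by
  have := Fact.mk hr
  set L : Subgroup X := (Subgroup.zpowers v).comap f with hL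
  have hLn : L.Normal := hn.comap f
  obtain ⟨R⟩ : Nonempty (Sylow r L) := inferInstance
  have hfr := Sylow.normalizer_sup_eq_top R
  obtain ⟨x0, hx0⟩ := hf t
  have hx0' : x0 ∈ Subgroup.normalizer (((R : Subgroup L).map L.subtype : Subgroup X) : Set X) ⊔ L := by
    rw [hfr]; trivial
  rw [Subgroup.mem_sup_of_normal_right] at hx0'
  obtain ⟨h, hh, l, hl, hhl⟩ := hx0'
  -- elements of `zpowers v` are inverted by `f h`
  have hvcomm : ∀ a ∈ Subgroup.zpowers v, ∀ b ∈ Subgroup.zpowers v, a * b = b * a := by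
    rintro _ ⟨i, rfl⟩ _ ⟨j, rfl⟩
    simp only [← zpow_add, add_comm]
  have htv : ∀ a ∈ Subgroup.zpowers v, t * a * t⁻¹ = a⁻¹ := by
    rintro _ ⟨i, rfl⟩
    have : t * v ^ i * t⁻¹ = (t * v * t⁻¹) ^ i := by
      rw [conj_zpow]
    simp only [this, hinv, inv_zpow]
  have hfh : ∀ a ∈ Subgroup.zpowers v, f h * a * (f h)⁻¹ = a⁻¹ := by
    intro a ha
    have hfl : f l ∈ Subgroup.zpowers v := hl
    have e1 : f h = t * (f l)⁻¹ := by
      rw [← hx0, ← hhl, map_mul]; group
    have e2 : (f l)⁻¹ * a * f l = a := by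
      rw [mul_assoc, hvcomm a ha _ hfl]; group
    rw [e1]
    calc t * (f l)⁻¹ * a * (t * (f l)⁻¹)⁻¹ = t * ((f l)⁻¹ * a * f l) * t⁻¹ := by group
      _ = t * a * t⁻¹ := by rw [e2]
      _ = a⁻¹ := htv a ha
  obtain ⟨m, hm, hk⟩ := exists_two_part h
  have hRodd : Odd (Nat.card ((R : Subgroup L).map L.subtype : Subgroup X)) := by
    rw [Subgroup.card_map_of_injective L.subtype_injective]
    obtain ⟨n, hn⟩ := IsPGroup.iff_card.mp R.isPGroup'
    rw [hn]
    exact hr2.pow
  have hRker : ∀ x ∈ (R : Subgroup L).map L.subtype, f x = 1 := by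
    intro x hx
    have hxL : f x ∈ Subgroup.zpowers v := (Subgroup.map_subtype_le _ hx : x ∈ L)
    have hc := hX.commute hRodd hk (Subgroup.pow_mem _ hh m) hx
    have h1 : f h ^ m * f x * (f h ^ m)⁻¹ = (f x)⁻¹ := conj_pow_odd (hfh _ hxL) hm
    have h2 : f h ^ m * f x = f x * f h ^ m := by
      rw [← map_pow, ← map_mul, ← map_mul, hc]
    have h3 : f x = (f x)⁻¹ := by
      rw [← h1, h2]; group
    have h4 : f x ^ 2 = 1 := by
      rw [pow_two]; nth_rewrite 2 [h3]; simp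
    have h5 : f x ^ r = 1 := by
      rw [← orderOf_dvd_iff_pow_eq_one]
      have := (Subgroup.zpowers v).orderOf_dvd_natCard hxL
      rwa [Nat.card_zpowers, hv] at this
    have h6 : orderOf (f x) ∣ Nat.gcd 2 r :=
      Nat.dvd_gcd (orderOf_dvd_of_pow_eq_one h4) (orderOf_dvd_of_pow_eq_one h5)
    have h7 : Nat.gcd 2 r = 1 := (Nat.coprime_two_left.mpr hr2)
    rw [h7, Nat.dvd_one, orderOf_eq_one_iff] at h6
    exact h6
  -- an `r`-element of `L` mapping to a non-identity power of `v`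
  obtain ⟨y, hy⟩ := hf v
  obtain ⟨a, b, hb, hab⟩ := Nat.exists_eq_pow_mul_and_not_dvd (orderOf_pos y).ne' r hr.ne_one
  have hyL : y ^ b ∈ L := by
    rw [hL, Subgroup.mem_comap, map_pow, hy]
    exact Subgroup.pow_mem _ (Subgroup.mem_zpowers v) b
  have hyp : IsPGroup r (Subgroup.zpowers (⟨y ^ b, hyL⟩ : L)) := by
    apply IsPGroup.of_card_dvd_pow (n := a)
    rw [Nat.card_zpowers, orderOf_dvd_iff_pow_eq_one]
    ext
    simp only [Subgroup.coe_pow, Subgroup.coe_one]
    rw [← pow_mul, mul_comm, ← hab, pow_orderOf_eq_one]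
  obtain ⟨Q, hQ⟩ := hyp.exists_le_sylow
  obtain ⟨g, hg⟩ := MulAction.exists_smul_eq L R Q
  have hyQ : (⟨y ^ b, hyL⟩ : L) ∈ (g • R : Sylow r L) := by
    rw [hg]; exact hQ (Subgroup.mem_zpowers _)
  have hyR : (g⁻¹ * ⟨y ^ b, hyL⟩ * g : L) ∈ (R : Subgroup L) := by
    have h3 : (⟨y ^ b, hyL⟩ : L) ∈ MulAut.conj g • (R : Subgroup L) := hyQ
    rw [Subgroup.mem_pointwise_smul_iff_inv_smul_mem] at h3
    simpa [MulAut.smul_def, MulAut.conj_inv_apply, mul_assoc] using h3
  have h8 := hRker _ (Subgroup.mem_map_of_mem L.subtype hyR)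
  simp only [map_mul, Subgroup.coe_subtype, map_inv] at h8
  have h9 : f (y ^ b) = 1 := by
    have := congrArg (fun z => f (g : X) * z * (f (g : X))⁻¹) h8
    simpa [mul_assoc] using this
  rw [map_pow, hy, ← orderOf_dvd_iff_pow_eq_one, hv] at h9
  exact hb h9

/-- `NoInv` passes to quotients. -/
theorem NoInv.quotient {G : Type*} [Group G] [Finite G] (hG : NoInv G) (N : Subgroup G)
    [N.Normal] : NoInv (G ⧸ N) := by
  intro t u _ hodd hinv
  by_contra hu
  have hne : orderOf u ≠ 1 := by rwa [Ne, orderOf_eq_one_iff]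
  set r := (orderOf u).minFac with hr
  have hrp : r.Prime := Nat.minFac_prime hne
  have hrd : r ∣ orderOf u := Nat.minFac_dvd _
  have hr2 : Odd r := Odd.of_dvd_nat hodd hrd
  obtain ⟨c, hc⟩ := hrd
  have hc0 : c ≠ 0 := by
    rintro rfl
    have := orderOf_pos u
    omega
  set v := u ^ c with hv
  have hov : orderOf v = r := by
    rw [hv, orderOf_pow_of_dvd hc0 ⟨r, by rw [hc, mul_comm]⟩, hc, Nat.mul_div_cancel _ (by omega)]
  have hiv : t * v * t⁻¹ = v⁻¹ := by
    rw [hv, ← conj_pow, hinv, inv_pow]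
  set Y : Subgroup (G ⧸ N) := Subgroup.normalizer ((Subgroup.zpowers v : Subgroup (G ⧸ N)) : Set (G ⧸ N)) with hY
  have htY : t ∈ Y := by
    rw [hY, Subgroup.mem_normalizer_iff]
    have key : ∀ i : ℤ, t * v ^ i * t⁻¹ = v ^ (-i) := by
      intro i
      rw [← conj_zpow, hiv, inv_zpow, zpow_neg]
    intro x
    constructor
    · rintro ⟨i, rfl⟩
      exact ⟨-i, (key i).symm⟩
    · rintro ⟨i, hi⟩
      refine ⟨-i, ?_⟩
      have h1 := key (-i)
      rw [neg_neg] at h1
      simp only at hi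
      rw [hi] at h1
      simpa using h1
  have hvY : v ∈ Y := Subgroup.le_normalizer (Subgroup.mem_zpowers v)
  let f := (QuotientGroup.mk' N).subgroupComap Y
  have hf : Function.Surjective f :=
    MonoidHom.subgroupComap_surjective_of_surjective _ _ (QuotientGroup.mk'_surjective N)
  refine quot_aux f hf (hG.of_injective (Subgroup.subtype _) (Subgroup.subtype_injective _))
    ⟨t, htY⟩ ⟨v, hvY⟩ r hrp hr2 ?_ ?_ ?_
  · rw [Subgroup.orderOf_mk]; exact hov
  · ext
    simp [hiv]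
  · constructor
    rintro ⟨x, hx⟩ hxi ⟨g, hg⟩
    have h1 : x ∈ Subgroup.zpowers v := by
      obtain ⟨i, hi⟩ := hxi
      exact ⟨i, by simpa using congrArg Subtype.val hi⟩
    have h2 := (Subgroup.mem_normalizer_iff.mp hg x).mp h1
    obtain ⟨j, hj⟩ := h2
    refine ⟨j, ?_⟩
    ext
    simpa using hj

/-- A finite group in which no 2-element inverts a non-identity element of odd order is
solvable. -/
theorem NoInv.isSolvable {G : Type*} [Group G] [Finite G] (hG : NoInv G) :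
    Group.IsSolvable G := by
  have := Cfsg.Agent.Lib.Cores.pCore_normal (G := G) 2
  have hp := Cfsg.Agent.Lib.Cores.pCore_isPGroup (G := G) 2
  have hQ : NoInv (G ⧸ Cfsg.pCore 2 G) := hG.quotient _
  have hodd : Odd (Nat.card (G ⧸ Cfsg.pCore 2 G)) := by
    by_contra hne
    rw [Nat.not_odd_iff_even, even_iff_two_dvd] at hne
    obtain ⟨t, ht⟩ := exists_prime_orderOf_dvd_card' 2 hne
    obtain ⟨h, h1, h2, h3⟩ := Cfsg.Agent.S0200.result t ht (by
      intro N hN hN2 htN
      have := Cfsg.Agent.Lib.Cores.le_pCore hN hN2 htN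
      rw [Cfsg.Agent.Lib.Cores.pCore_quotient_pCore] at this
      rw [Subgroup.mem_bot] at this
      rw [this, orderOf_one] at ht
      omega)
    refine h1 (hQ t h ⟨1, ?_⟩ h2 h3)
    have h4 := pow_orderOf_eq_one t
    rw [ht] at h4
    rwa [pow_one]
  have hs : Group.IsSolvable (G ⧸ Cfsg.pCore 2 G) := Cfsg.Agent.S0205.result hodd
  have hs2 : Group.IsSolvable (Cfsg.pCore 2 G) := by
    have : Group.IsNilpotent (Cfsg.pCore 2 G) := hp.isNilpotent
    infer_instance
  exact Group.isSolvable_of_ker_le_range (Cfsg.pCore 2 G).subtype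
    (QuotientGroup.mk' (Cfsg.pCore 2 G)) (by simp)

end Cfsg.Agent.H531.InvertOdd
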